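import Cfsg.Agent.H526.ObParity
import Cfsg.Agent.S0165

/-!
# S4095: elements all of whose commutators are trivial or `p`-singular, and characters of `p`-defect zero (helper32)

* `false_of_dz` : **if `G` has an irreducible character of `p`-defect zero, no element of order divisible by `p` is bad**
  (no block theory: with `K` the class of `x⁻¹`, `∑_{k ∈ K} χ (k x) = (∑_K χ) / χ 1 * χ x = 0`, while all the terms but
  the one of `k = x⁻¹` vanish);
* `false_of_real` : a bad element of odd order (at the prime 2) is not real.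
-/

set_option autoImplicit false

namespace Cfsg.Agent.H32.S4095

open Cfsg Cfsg.Agent Cfsg.Agent.Characters.Core

/-- all commutators `x s⁻¹ x⁻¹ s` are trivial or of order divisible by `p` -/
def BadE (p : ℕ) {G : Type*} [Group G] (x : G) : Prop :=
  ∀ s : G, (x * s * x⁻¹)⁻¹ * s = 1 ∨ p ∣ orderOf ((x * s * x⁻¹)⁻¹ * s)

theorem BadE.map {p : ℕ} {G H : Type*} [Group G] [Group H] (e : G ≃* H) {x : G} (h : BadE p x) : BadE p (e x) := by
  intro s
  have h1 : (e x * s * (e x)⁻¹)⁻¹ * s = e ((x * e.symm s * x⁻¹)⁻¹ * e.symm s) := by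
    simp only [map_mul, map_inv, MulEquiv.apply_symm_apply]
  rw [h1, MulEquiv.orderOf_eq]
  rcases h (e.symm s) with h2 | h2
  · left
    rw [h2, map_one]
  · exact Or.inr h2

/-- **Characters of defect zero.** -/
theorem false_of_dz {G : Type*} [Group G] [Finite G] {p n : ℕ} (hp : p.Prime) (hn : p ^ n ∣ Nat.card G)
    (hn' : ¬ p ^ (n + 1) ∣ Nat.card G) (χ : IrrCharacter G) (hd : p ^ n ∣ charDegree (χ : G → ℂ)) {x : G}
    (hx : p ∣ orderOf x) (hb : BadE p x) : False := by
  classical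
  have := Fintype.ofFinite G
  obtain ⟨f, m, ρ, hρ, rfl⟩ := χ
  change p ^ n ∣ charDegree ρ.character at hd
  have hdeg : charDegree ρ.character = Module.finrank ℂ (Fin m → ℂ) := by
    unfold charDegree
    rw [Representation.char_one]
    simp
  rw [hdeg] at hd
  have hv : ∀ y : G, p ∣ orderOf y → ρ.character y = 0 := fun y hy => S0165.result ρ p n hp hn hn' hd y hy
  have h1 : ρ.character 1 ≠ 0 := by
    rw [Representation.char_one]
    have h2 : 0 < charDegree ρ.character := by
      have h3 := S0135.result ρ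
      rw [hdeg]
      exact Nat.pos_of_dvd_of_pos h3 Nat.card_pos
    rw [hdeg] at h2
    exact_mod_cast h2.ne'
  obtain ⟨K, hKm⟩ : ∃ K : Set G, ∀ k, k ∈ K ↔ IsConj x⁻¹ k := ⟨{k : G | IsConj x⁻¹ k}, fun _ => Iff.rfl⟩
  have hK : ∀ g : G, ∀ k ∈ K, g * k * g⁻¹ ∈ K := fun g k hk =>
    (hKm _).2 (IsConj.trans ((hKm _).1 hk) (isConj_iff.2 ⟨g, rfl⟩))
  have h2 := H526.OB.sum_mul_eq (χ := ρ.character) ⟨m, ρ, hρ, rfl⟩ hK x
  rw [hv x hx, mul_zero] at h2
  have h3 : ∀ k : G, (if k ∈ K then ρ.character (k * x) else 0) =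
      if k = x⁻¹ then ρ.character 1 else 0 := by
    intro k
    by_cases hk : k = x⁻¹
    · rw [if_pos hk, if_pos ((hKm k).2 (by rw [hk])), hk, inv_mul_cancel]
    · rw [if_neg hk]
      by_cases hk2 : k ∈ K
      · rw [if_pos hk2]
        apply hv
        obtain ⟨s, hs⟩ := isConj_iff.1 ((hKm k).1 hk2)
        have h4 : (x * s⁻¹ * x⁻¹)⁻¹ * s⁻¹ = x * k := by rw [← hs]; group
        have h5 : x⁻¹ * (x * k) * x⁻¹⁻¹ = k * x := by group
        have h6 : orderOf (k * x) = orderOf (x * k) := by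
          rw [← h5]
          exact orderOf_injective (MulAut.conj x⁻¹).toMonoidHom (MulAut.conj x⁻¹).injective _
        rcases hb s⁻¹ with h7 | h7
        · exfalso
          apply hk
          rw [h4] at h7
          exact (inv_eq_of_mul_eq_one_right h7).symm
        · rw [h6, ← h4]
          exact h7
      · rw [if_neg hk2]
  rw [Finset.sum_congr rfl fun k _ => h3 k, Finset.sum_ite_eq' Finset.univ x⁻¹ (fun _ => ρ.character 1),
    if_pos (Finset.mem_univ _)] at h2
  exact h1 h2

/-- **Real elements of odd order.** -/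
theorem false_of_real {G : Type*} [Group G] {x : G} (hx1 : x ≠ 1) (hx : Odd (orderOf x)) (hr : IsConj x x⁻¹)
    (hb : BadE 2 x) : False := by
  obtain ⟨s, hs⟩ := isConj_iff.1 hr
  have h1 : (x * s * x⁻¹)⁻¹ * s = x ^ 2 := by
    have h2 : s⁻¹ * x⁻¹ * s = x := by rw [← hs]; group
    calc (x * s * x⁻¹)⁻¹ * s = x * (s⁻¹ * x⁻¹ * s) := by group
      _ = x ^ 2 := by rw [h2, pow_two]
  have h3 := hb s
  rw [h1] at h3
  rcases h3 with h3 | h3
  · have h4 : orderOf x ∣ 2 := orderOf_dvd_of_pow_eq_one h3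
    rcases (Nat.dvd_prime Nat.prime_two).1 h4 with h5 | h5
    · exact hx1 (orderOf_eq_one_iff.1 h5)
    · rw [h5] at hx
      exact absurd hx (by decide)
  · have h4 : 2 ∣ orderOf x := h3.trans (orderOf_pow_dvd 2)
    exact (Nat.not_even_iff_odd.2 hx) (even_iff_two_dvd.2 h4)

end Cfsg.Agent.H32.S4095
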